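import Cfsg.Agent.Lib.ToddCox.A82C2.Data
set_option autoImplicit false
set_option maxRecDepth 100000
namespace Cfsg.Agent.Lib.ToddCox.A82C2
theorem wordsGood : allBelow (wordsOK W (relR Rb inv) inv sp) nW 3 = true := by decide +kernel
theorem d0 : allBits (fun k => bif Nat.blt k 2 then chkDef Eo inv k else true) 13 0 = true := by decide +kernel
theorem s0 : chkStream Eo inv W isH 8 2 0x2000006000000000000a0000090000038000004000014000003000007000004000000800000f0000010000030000000000007000004800001c00000200000c0000018000038000006000002000006000000c0000040000000000048000014000012000001000000800000000000a0000010000007ffffffffffffffffff = true := by decide +kernel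
theorem c0 : Covered Eo inv W isH 2 10 := covered_of_stream 8 2 _ s0
theorem l0 : chkPoints Eo cF (2 * nEv) N ys 3 0 0x8800000800000600000100000780000080000260000020000008000000000004000002000006800000400001600000100000000000040000100000000000030000000000008000000 = true := by decide +kernel
theorem k0 : LinksOK Eo cF (2 * nEv) N ys 0 3 := linksOK_of_points 3 0 _ l0
end Cfsg.Agent.Lib.ToddCox.A82C2
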